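import Cfsg.Agent.H954.DR.RowG2
import Cfsg.Agent.H653.Sieve.Main
import Cfsg.Agent.H719.RowTData
import Cfsg.Agent.H115.HC.Rows
import Cfsg.Agent.S1055

/-!
# S4899: the row `G₂(q)`, `q ≥ 3` (helper954)

`G₂(3)` : the degrees `1`, `91`, `104`, `168`, `729`, a multiple of `364`, a degree congruent to `± 6` modulo `13`
(exceptional characters for the prime `13`) and a degree prime to `7`, different from `1`, `104`, `729` and not congruent
to `± 6` modulo `13` (orthogonality of the columns of `7` and `13`).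
-/

set_option autoImplicit false
set_option maxRecDepth 100000

open Cfsg

namespace Cfsg.Agent.H954.DR.RowG2

open Subgroup
open Cfsg.Agent.Characters.Core Cfsg.Agent.H653.Sys Cfsg.Agent.H653.Sieve Cfsg.Agent.H653.Graph
open Cfsg.Lie
open Cfsg.Agent.H424.DegTools (mem_charDegrees one_mem_degrees pos_of_mem)

theorem cent_of_hasT {T : Type*} [Group T] [Finite T] {r : ℕ} (hr : r.Prime) (h : H719.HasT T r r) :
    ∃ x : T, orderOf x = r ∧ Nat.card (centralizer ({x} : Set T)) = r * 1 := by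
  obtain ⟨x, hx, h1⟩ := h
  have hx1 : x ≠ 1 := by
    rintro rfl
    rw [orderOf_one] at hx
    exact hr.one_lt.ne hx
  obtain ⟨hc, hk⟩ := h1 x (mem_zpowers x) hx1
  refine ⟨x, hx, ?_⟩
  rw [mul_one]
  apply Nat.dvd_antisymm
  · obtain ⟨g, hg⟩ := hc.exists_generator
    rw [← orderOf_eq_card_of_forall_mem_zpowers hg, orderOf_dvd_iff_pow_eq_one]
    apply Subtype.ext
    exact hk g (mem_centralizer_singleton_iff.1 g.2)
  · have h2 : x ∈ centralizer ({x} : Set T) := mem_centralizer_singleton_iff.2 rfl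
    have h3 : orderOf (⟨x, h2⟩ : centralizer ({x} : Set T)) ∣ Nat.card (centralizer ({x} : Set T)) :=
      orderOf_dvd_natCard _
    rwa [Subgroup.orderOf_mk, hx] at h3

/-- the prime data -/
def Ds : List PD := [⟨7, 1, 6, 1, [(0, 0), (1, 1), (6, -1)], 7, 0, false⟩,
  ⟨13, 1, 6, 2, [(0, 0), (1, 2), (12, -2), (6, -1), (7, 1)], 26, 2, true⟩]

/-- the primes -/
def L : List (ℕ × ℕ) := [(13, 1), (7, 1), (3, 6), (2, 6)]

/-- the conditions -/
def Cs : List Cond := [condEq 729]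

section

variable {S : Type*} [Group S] [Finite S] [Fintype (IrrCharacter S)] {lab : S → ℕ}

/-- a degree congruent to `± 6` modulo `13` -/
def Q1 (d : ℕ) : Bool := Nat.beq (d % 13) 6 || Nat.beq (d % 13) 7

/-- a new degree prime to `7` -/
def Q2 (d : ℕ) : Bool := !(Nat.beq (d % 7) 0) && !(Nat.beq d 1) && !(Nat.beq d 104) && !(Nat.beq d 729) && !(Q1 d)

theorem ex1 (C : Ctx S lab 4245696 L (Ds.map PD.fam) Cs) : ∃ χ : IrrCharacter S, (χ : S → ℂ) ≠ 1 ∧ Q1 (deg χ) = true := by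
  obtain ⟨Ws, hs⟩ := C.sys
  exact exists_of_cert C.conj C.lone _ C.card L C.pr C.fac C.one hs [] (by simp) 0
    [⟨0, 0, 0, []⟩, ⟨0, 0, -1, []⟩] Q1 (by decide +kernel) (by decide +kernel)

theorem ex2 (C : Ctx S lab 4245696 L (Ds.map PD.fam) Cs) : ∃ χ : IrrCharacter S, (χ : S → ℂ) ≠ 1 ∧ Q2 (deg χ) = true := by
  obtain ⟨Ws, hs⟩ := C.sys
  exact exists_of_cert C.conj C.lone _ C.card L C.pr C.fac C.one hs (exOf Cs [-2])
    (exOf_holds C.cond (by decide +kernel)) 0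
    [⟨0, 0, 0, [1]⟩, ⟨0, 0, 1, []⟩] Q2 (by decide +kernel) (by decide +kernel)

end

theorem card3 : Nat.card ↥(chevG2.group (ZMod 3)) = 4245696 := by
  rw [S1059.result (F := ZMod 3) (q := 3) (ZMod.card 3)]
  norm_num

/-- **`G₂(3)`.** -/
theorem eight_three : Cfsg.Agent.H664.Eight.Eight ↥(chevG2.group (ZMod 3)) := by
  classical
  have hfin : Finite ↥(chevG2.group (ZMod 3)) := Nat.finite_of_card_ne_zero (by rw [card3]; norm_num)
  have hirr := finite_irr (G := ↥(chevG2.group (ZMod 3)))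
  have := Fintype.ofFinite (IrrCharacter ↥(chevG2.group (ZMod 3)))
  have hs : IsSimpleGroup ↥(chevG2.group (ZMod 3)) :=
    (Cfsg.Agent.S1055.result (F := ZMod 3) ⟨2, by decide, by decide⟩).1
  obtain ⟨d₁, d₂, d₃, h1, h2, h3, m1, m2, m3⟩ := unip (K := ZMod 3)
  have hst := st_mem (K := ZMod 3)
  rw [ZMod.card] at h1 h2 h3 hst
  have e1 : d₁ = 104 := by omega
  have e2 : d₂ = 168 := by omega
  have e3 : d₃ = 91 := by omega
  subst e1 e2 e3
  obtain ⟨χb, m, hm⟩ := Cfsg.Agent.H115.HC.GThree.char_three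
  have c13 := cent_of_hasT (by norm_num) (H719.hasT_G2_3 (F := ZMod 3) (q := 3) (N := 13) (Phi := 13) (ZMod.card 3)
    (by norm_num) (by norm_num))
  have c7 := cent_of_hasT (by norm_num) (H719.hasT_G2_6 (F := ZMod 3) (q := 3) (N := 7) (Phi := 7) (ZMod.card 3)
    (by norm_num) (by norm_num))
  have C : Ctx ↥(chevG2.group (ZMod 3)) (fun g => orderOf g) 4245696 L (Ds.map PD.fam) Cs := by
    refine ctx_of_primes card3 (by norm_num) (by decide +kernel) (by decide +kernel) (by decide +kernel) ?_ ?_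
    · intro D hD
      simp only [Ds, List.mem_cons, List.not_mem_nil, or_false] at hD
      rcases hD with rfl | rfl
      · exact c7
      · exact c13
    · intro c hc
      simp only [Cs, List.mem_cons, List.not_mem_nil, or_false] at hc
      rw [hc]
      exact condEq_holds hst
  obtain ⟨χ₁, -, q1⟩ := ex1 C
  obtain ⟨χ₂, -, q2⟩ := ex2 C
  obtain ⟨a, ha⟩ : ∃ a, a = deg χ₁ := ⟨_, rfl⟩
  obtain ⟨b, hb⟩ : ∃ b, b = deg χ₂ := ⟨_, rfl⟩
  rw [← ha] at q1
  rw [← hb] at q2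
  have ma : a ∈ charDegrees ↥(chevG2.group (ZMod 3)) := ⟨χ₁, ha.symm⟩
  have mb : b ∈ charDegrees ↥(chevG2.group (ZMod 3)) := ⟨χ₂, hb.symm⟩
  have mm : 364 * m ∈ charDegrees ↥(chevG2.group (ZMod 3)) := ⟨χb, hm⟩
  have hm0 := pos_of_mem mm
  simp only [Q2, Q1, Bool.and_eq_true, Bool.or_eq_true, Bool.not_eq_true', Bool.or_eq_false_iff] at q1 q2
  replace q1 : a % 13 = 6 ∨ a % 13 = 7 := q1.imp Nat.eq_of_beq_eq_true Nat.eq_of_beq_eq_true
  have n1 : ∀ x y : ℕ, Nat.beq x y = false → x ≠ y := by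
    intro x y h h0
    rw [h0, Nat.beq_refl] at h
    exact Bool.false_ne_true h.symm
  obtain ⟨⟨⟨⟨q3, q4⟩, q5⟩, q6⟩, q7, q8⟩ := q2
  replace q3 := n1 _ _ q3
  replace q4 := n1 _ _ q4
  replace q5 := n1 _ _ q5
  replace q6 := n1 _ _ q6
  replace q7 := n1 _ _ q7
  replace q8 := n1 _ _ q8
  refine Cfsg.Agent.H664.Eight.eight_of_list [1, 104, 168, 91, 729, 364 * m, a, b] ?_ (by simp) ?_
  · simp only [List.nodup_cons, List.mem_cons, List.not_mem_nil, or_false, not_or]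
    refine ⟨⟨?_, ?_, ?_, ?_, ?_, ?_, ?_⟩, ⟨?_, ?_, ?_, ?_, ?_, ?_⟩, ⟨?_, ?_, ?_, ?_, ?_⟩, ⟨?_, ?_, ?_, ?_⟩, ⟨?_, ?_, ?_⟩,
      ⟨?_, ?_⟩, ?_, ?_⟩ <;> first | omega | simp
  · intro d hd
    simp only [List.mem_cons, List.not_mem_nil, or_false] at hd
    rcases hd with rfl | rfl | rfl | rfl | rfl | rfl | rfl | rfl
    · exact one_mem_degrees
    · exact m1
    · exact m2
    · exact m3
    · exact hst
    · exact mm
    · exact ma
    · exact mb

/-- **The row `G₂(q)`, `q ≥ 3`.** -/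
theorem eight_G2 {S : Type*} [Group S] (h : Lie.IsoChevG2 S) : Cfsg.Agent.H664.Eight.Eight S := by
  obtain ⟨F, _, _, h3, ⟨e⟩⟩ := h
  refine Cfsg.Agent.H664.Eight.Eight.of_equiv e ?_
  rcases Nat.eq_or_lt_of_le h3 with h4 | h4
  · have e : F ≃+* ZMod 3 := (ZMod.ringEquivOfPrime F Nat.prime_three h4.symm).symm
    exact Cfsg.Agent.H664.Eight.Eight.of_equiv (Cfsg.Agent.ChevStructure.FieldMap.groupEquivOfRingEquiv chevG2 e)
      eight_three
  · exact eight_four h4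

end Cfsg.Agent.H954.DR.RowG2
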