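import Cfsg.Agent.H816.IMM
import Cfsg.Agent.H664.Eight.Base
import Cfsg.Agent.H424.DegTools

/-!
# S4899: the row of the Monster (helper954)

Nine degrees, from the permutation character on the axes (helper816).
-/

set_option autoImplicit false

open Cfsg

namespace Cfsg.Agent.H954.DR

open Cfsg.Agent.H816.IMM Cfsg.Agent.H424.DegTools

theorem card_pos_M {S : Type*} [Group S] (h : Spor.IsoM S) : Finite S :=
  Nat.finite_of_card_ne_zero (by rw [card_eq h]; norm_num)

/-- **The row of the Monster.** -/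
theorem eight_M {S : Type*} [Group S] (h : Spor.IsoM S) : Cfsg.Agent.H664.Eight.Eight S := by
  have : Finite S := card_pos_M h
  refine Cfsg.Agent.H664.Eight.eight_of_list [1, 196883, 842609326, 18538750076, 36173193327999, 1109944460516150,
    251098487132187500, 49609712911192813665, 47377503606648784400] (by norm_num) (by norm_num) ?_
  intro d hd
  simp only [List.mem_cons, List.not_mem_nil, or_false] at hd
  rw [mem_charDegrees]
  rcases hd with rfl | rfl | rfl | rfl | rfl | rfl | rfl | rfl | rfl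
  · obtain ⟨χ, hχ, h1⟩ := exists_chi_1 h
    exact ⟨χ, hχ, by rw [h1]; norm_num⟩
  · obtain ⟨χ, hχ, h1⟩ := exists_chi_196883 h
    exact ⟨χ, hχ, by rw [h1]; norm_num⟩
  · obtain ⟨χ, hχ, h1⟩ := exists_chi_842609326 h
    exact ⟨χ, hχ, by rw [h1]; norm_num⟩
  · obtain ⟨χ, hχ, h1⟩ := exists_chi_18538750076 h
    exact ⟨χ, hχ, by rw [h1]; norm_num⟩
  · obtain ⟨χ, hχ, h1⟩ := exists_chi_36173193327999 h
    exact ⟨χ, hχ, by rw [h1]; norm_num⟩
  · obtain ⟨χ, hχ, h1⟩ := exists_chi_1109944460516150 h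
    exact ⟨χ, hχ, by rw [h1]; norm_num⟩
  · obtain ⟨χ, hχ, h1⟩ := exists_chi_251098487132187500 h
    exact ⟨χ, hχ, by rw [h1]; norm_num⟩
  · obtain ⟨χ, hχ, h1⟩ := exists_chi_49609712911192813665 h
    exact ⟨χ, hχ, by rw [h1]; norm_num⟩
  · obtain ⟨χ, hχ, h1⟩ := exists_chi_47377503606648784400 h
    exact ⟨χ, hχ, by rw [h1]; norm_num⟩

end Cfsg.Agent.H954.DR
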